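import Mathlib
import Cfsg.Agent.Lib.Lead.BG95.Defs
import Cfsg.Agent.Lib.Helper3.BG95LemmaZ
import Cfsg.Agent.S1451

/-!
Package PK5 (Step 3, "N1") of the team project S1402 (Bender–Glauberman Lemma 9.5) — helper53.

`thin_le_of_good`: generic form (no simplicity hypothesis).  If `⁅H, H⁆` is nilpotent and contains
an element `x` with `x ^ s = 1` and `C_G(x) ≤ M`, every `A`-invariant `s`-subgroup lies in `M`,
and `N_G(R) ≤ M` for every `p`-subgroup `R ≥ A`, then `H ≤ M`.
-/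

set_option autoImplicit false

namespace Cfsg.Agent.Lib.Helper53.BG95

open Cfsg
open scoped commutatorElement

universe u

/-- Generic form of (N1): a subgroup `H ≥ A` with nilpotent derived subgroup containing an
`s`-element `x` whose centralizer lies in `M` is contained in `M`, provided `M` contains every
`A`-invariant `s`-subgroup and the normalizer of every `p`-subgroup containing `A`. -/
theorem thin_le_of_good {G : Type*} [Group G] [Finite G] (p s : ℕ) [Fact p.Prime]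
    [Fact s.Prime] (A M H : Subgroup G) (hAp : IsPGroup p A) (hAH : A ≤ H)
    (hnil : Group.IsNilpotent ↥⁅H, H⁆)
    (ha : ∀ R : Subgroup G, IsPGroup p R → A ≤ R → Subgroup.normalizer (R : Set G) ≤ M)
    (hb : ∀ Y : Subgroup G, IsPGroup s Y → A ≤ Subgroup.normalizer (Y : Set G) → Y ≤ M)
    (x : G) (hx : x ∈ ⁅H, H⁆) (hxs : x ^ s = 1)
    (hCx : Subgroup.centralizer ({x} : Set G) ≤ M) : H ≤ M := by
  have hDH : ⁅H, H⁆ ≤ H := Cfsg.Agent.Lib.Helper3.BG95.commutator_self_le H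
  have hHND : H ≤ Subgroup.normalizer ((⁅H, H⁆ : Subgroup G) : Set G) :=
    Cfsg.Agent.Lib.Helper3.BG95.le_normalizer_of_commutator_le le_rfl hDH
  obtain ⟨T, hT⟩ := Cfsg.Agent.Lib.Helper23.exists_isRPart ⁅H, H⁆ hnil s
  have hHNT : H ≤ Subgroup.normalizer (T : Set G) := hHND.trans hT.normalizer_le
  have hTM : T ≤ M := hb T hT.2.1 (hAH.trans hHNT)
  have hDM : ⁅H, H⁆ ≤ M := by
    intro n hn
    obtain ⟨a, b, ha', hb', hab, hap, hbo⟩ :=
      Cfsg.Agent.Lib.Helper3.BG95.exists_pPart_mul s n (isOfFinOrder_of_finite n)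
    have hzn : Subgroup.zpowers n ≤ ⁅H, H⁆ := Subgroup.zpowers_le.mpr hn
    have haT : a ∈ T := hT.2.2 a (hzn ha') hap
    have hbx : b * x = x * b := by
      apply Cfsg.Agent.Lib.Helper23.comm_of_coprime_orderOf hnil (hzn hb') hx
      have h1 : orderOf x ∣ s := orderOf_dvd_of_pow_eq_one hxs
      exact Nat.Coprime.coprime_dvd_right h1 hbo
    have hbC : b ∈ Subgroup.centralizer ({x} : Set G) := by
      rw [Subgroup.mem_centralizer_iff]
      intro y hy
      rw [Set.mem_singleton_iff] at hy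
      rw [hy]
      exact hbx.symm
    rw [hab]
    exact M.mul_mem (hTM haT) (hCx hbC)
  obtain ⟨P, hAP, hP⟩ := Cfsg.Agent.Lib.Helper61.exists_isSylIn_ge hAp hAH
  have hNPM : Subgroup.normalizer (P : Set G) ≤ M := ha P hP.2.1 hAP
  have hPM : P ≤ M := Subgroup.le_normalizer.trans hNPM
  have hNH : P ⊔ ⁅H, H⁆ ≤ H := sup_le hP.1 hDH
  have hHN : H ≤ Subgroup.normalizer ((P ⊔ ⁅H, H⁆ : Subgroup G) : Set G) :=
    Cfsg.Agent.Lib.Helper3.BG95.le_normalizer_of_commutator_le le_sup_right hNH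
  have hPN : Cfsg.Agent.Lib.Helper61.IsSylIn p P (P ⊔ ⁅H, H⁆) :=
    ⟨le_sup_left, hP.2.1, fun Q hQ hPQ hQN => hP.2.2 Q hQ hPQ (hQN.trans hNH)⟩
  intro h hh
  obtain ⟨n, hn, hnh⟩ := Cfsg.Agent.Lib.Helper61.bg_frattini hPN (hHN hh)
  have h1 : n⁻¹ * h ∈ M := hNPM hnh
  have h2 : n ∈ M := (sup_le hPM hDM) hn
  have h3 : h = n * (n⁻¹ * h) := by group
  rw [h3]
  exact M.mul_mem h2 h1

/-- The same with the nilpotency hypothesis in the form delivered by `S1451`. -/
theorem thin_le_of_good' {G : Type*} [Group G] [Finite G] (p s : ℕ) [Fact p.Prime]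
    [Fact s.Prime] (A M H : Subgroup G) (hAp : IsPGroup p A) (hAH : A ≤ H)
    (hnil : Group.IsNilpotent ↥(commutator ↥H))
    (ha : ∀ R : Subgroup G, IsPGroup p R → A ≤ R → Subgroup.normalizer (R : Set G) ≤ M)
    (hb : ∀ Y : Subgroup G, IsPGroup s Y → A ≤ Subgroup.normalizer (Y : Set G) → Y ≤ M)
    (x : G) (hx : x ∈ ⁅H, H⁆) (hxs : x ^ s = 1)
    (hCx : Subgroup.centralizer ({x} : Set G) ≤ M) : H ≤ M :=
  thin_le_of_good p s A M H hAp hAH
    (Cfsg.Agent.Lib.Helper3.BG95.isNilpotent_commutator_of_subtype H hnil) ha hb x hx hxs hCx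

/-- In a minimal simple group of odd order, a coatom `H` whose Fitting subgroup has rank at most
2 has nilpotent derived subgroup (`S1451`). -/
theorem isNilpotent_commutator_of_thin {G : Type u} [Group G] [Finite G]
    (hG : IsMinSimpleOddOrder G) (H : Subgroup G) (hH : H ≠ ⊤)
    (hthin : RankLE 2 ↥(fittingSubgroup ↥H)) : Group.IsNilpotent ↥⁅H, H⁆ := by
  haveI : Group.IsSolvable ↥H := hG.2.2.2 H hH
  have hoddH : Odd (Nat.card ↥H) := Odd.of_dvd_nat hG.1 (Subgroup.card_subgroup_dvd_card H)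
  exact Cfsg.Agent.Lib.Helper3.BG95.isNilpotent_commutator_of_subtype H
    (Cfsg.Agent.S1451.result hoddH (Or.inr hthin)).1

/-- PK5 (Step 3, N1). -/
theorem pk5 : Cfsg.Agent.Lib.Lead.BG95.PK5.{u} := by
  intro G _ _ p _ A E hctx M u W hTB hMfat V' hV'W hmin hV'comm H hH hAH hV'H hthin
  have hu : u.Prime := hTB.hu
  haveI : Fact u.Prime := ⟨hu⟩
  have hG := hctx.hG
  have hnil : Group.IsNilpotent ↥⁅H, H⁆ := isNilpotent_commutator_of_thin hG H hH.1 hthin
  -- a nonidentity element of `V'`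
  obtain ⟨x, hx1⟩ := (Subgroup.ne_bot_iff_exists_ne_one.mp hmin.1)
  have hxV' : (x : G) ∈ V' := x.2
  have hx1' : (x : G) ≠ 1 := fun h => hx1 (Subtype.ext h)
  have hxW : (x : G) ∈ W := hV'W hxV'
  have hxu : (x : G) ^ u = 1 := hTB.hWe.2 (x : G) hxW
  have hxD : (x : G) ∈ ⁅H, H⁆ := Subgroup.commutator_mono hV'H hAH (hV'comm hxV')
  -- `C_G(x) ≤ M`
  have hCx : Subgroup.centralizer ({(x : G)} : Set G) ≤ M := by
    have hWC : W ≤ Subgroup.centralizer ({(x : G)} : Set G) := by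
      intro w hw
      rw [Subgroup.mem_centralizer_iff]
      intro y hy
      rw [Set.mem_singleton_iff] at hy
      rw [hy]
      exact congrArg Subtype.val (hTB.hWe.1.is_comm.comm (⟨(x : G), hxW⟩ : ↥W) ⟨w, hw⟩)
    have hCne : Subgroup.centralizer ({(x : G)} : Set G) ≠ ⊤ := by
      intro htop
      have hz : Subgroup.zpowers (x : G) ≠ ⊥ := by
        intro h
        exact hx1' (Subgroup.zpowers_eq_bot.mp h)
      apply Cfsg.Agent.Lib.Helper61.bg_centralizer_ne_top hG.2.1 hG.2.2.1 hz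
      rw [eq_top_iff]
      intro g _
      have hg : g ∈ Subgroup.centralizer ({(x : G)} : Set G) := by rw [htop]; exact Subgroup.mem_top g
      rw [Subgroup.mem_centralizer_iff]
      intro y hy
      obtain ⟨k, rfl⟩ := Subgroup.mem_zpowers_iff.mp hy
      have hc : Commute g (x : G) :=
        (Subgroup.mem_centralizer_iff.mp hg (x : G) (Set.mem_singleton _)).symm
      exact (hc.zpow_right k).eq.symm
    have hWU : InUniqueMaximal W := hTB.hWU W le_rfl hTB.hWnc
    obtain ⟨M', hM', hCM'⟩ := Cfsg.Agent.Lib.Helper61.bg_exists_isCoatom_ge hCne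
    have hMM' : M = M' :=
      Cfsg.Agent.Lib.Helper61.bg_unique_eq hWU hTB.hM hTB.hWM hM' (hWC.trans hCM')
    rw [hMM']
    exact hCM'
  have hHM : H ≤ M :=
    thin_le_of_good p u A M H hctx.hAp hAH hnil hTB.hB7 hTB.hB6 (x : G) hxD hxu hCx
  have hEq : H = M := Cfsg.Agent.Lib.Helper61.bg_le_of_isCoatom hH hTB.hM hHM
  subst hEq
  exact hMfat hthin

end Cfsg.Agent.Lib.Helper53.BG95
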